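import Cfsg.Agent.H74.E83.LinN
import Cfsg.Agent.H74.E83.LinE
import Cfsg.Agent.H74.E83.LinM
import Cfsg.Agent.H74.E83.LinP

/-!
# The two linear systems of box K (helper74, S5925)

`linM`, `linP` : the solutions of `y w = w`, `∑_{i ∈ NQR} xⁱ w = 0`, `(1 + ∑_{i ∈ NQR} xⁱ)(1 + y + y² + y³ + y⁴) t w = ± w`.
-/

set_option autoImplicit false
set_option maxRecDepth 100000
set_option exponentiation.threshold 600

namespace Cfsg.Agent.H74.E83.Ker

open Matrix Cfsg.Lie Cfsg.Agent.ChevalleyStructure.Elts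
open Cfsg.Agent.H992.E8X
open Cfsg.Agent.H64.E83 (mx L3 er vec Ph vec_nil vec_cons)
open Cfsg.Agent.H74.E83 Cfsg.Agent.H74.E83.Trit Cfsg.Agent.H74.E83.Code Cfsg.Agent.H74.E83.Elim Cfsg.Agent.H74.E83.Trip
open Cfsg.Agent.H751.Two.Word (sz pos posOK)

theorem Rep.ann_fix {V : ℕ} {M : M8} (h : Rep V M) {v : L3} (hv : M *ᵥ v = v) {i : ℕ} (hi : i < 248) :
    Ann v (fixRow V i) :=
  ann_fixRow sz_le h.vld (by rw [h.sem]; exact hv) (by rw [sz_eq]; exact hi)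

theorem Rep.ann_neg {V : ℕ} {M : M8} (h : Rep V M) {v : L3} (hv : M *ᵥ v = -v) {i : ℕ} (hi : i < 248) :
    Ann v (negRow V i) := by
  obtain ⟨k, rfl⟩ := (posOK chevE8).surj i (by rw [sz_eq]; exact hi)
  have hk : pos chevE8 k < 256 := hi.trans (by norm_num)
  refine ⟨vld_add (h.vld _) (vld_un hk), ?_⟩
  unfold negRow
  rw [dotp_add (h.vld _) (vld_un hk), dotp_tun]
  have h1 := congrFun hv k
  rw [← h.sem] at h1
  have h2 : dotp (row V (pos chevE8 k)) v = -(v k) := h1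
  rw [h2, neg_add_cancel]

theorem rep_mY : Rep mY MY := by
  have h := rY Rep.one
  rw [mul_one] at h
  exact h

theorem rep_mT : Rep mT MT := by
  have h := rT Rep.one
  rw [mul_one] at h
  exact h

theorem rep_cN : Rep cN (MX ^ 2 + MX ^ 6 + MX ^ 7 + MX ^ 8 + MX ^ 10) := by
  have h := rNq Rep.one
  rw [mul_one] at h
  exact h

/-- the matrix `(1 + x² + x⁶ + x⁷ + x⁸ + x¹⁰)(1 + y + y² + y³ + y⁴) t` -/
noncomputable def ME : M8 :=
  (MX ^ 2 + MX ^ 6 + MX ^ 7 + MX ^ 8 + MX ^ 10) * ((1 + MY + MY ^ 2 + MY ^ 3 + MY ^ 4) * MT) +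
    (1 + MY + MY ^ 2 + MY ^ 3 + MY ^ 4) * MT

theorem rep_cE : Rep cE ME := (rYs rep_mT).add (rNq (rYs rep_mT))

theorem rep_lN : Rep lN (MX ^ 2 + MX ^ 6 + MX ^ 7 + MX ^ 8 + MX ^ 10) := cN_eq ▸ rep_cN

theorem rep_lE : Rep lE ME := cE_eq ▸ rep_cE

theorem ME_mulVec (w : L3) : ME *ᵥ w = yso (mx Trip.t1 *ᵥ w) + nqs (yso (mx Trip.t1 *ᵥ w)) := by
  unfold ME
  rw [nqs_eq, yso_eq, Matrix.add_mulVec, ← Matrix.mulVec_mulVec, ← Matrix.mulVec_mulVec, add_comm]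

theorem selm_lt : ∀ e ∈ selm, e.2 < 248 := by decide +kernel

theorem selp_lt : ∀ e ∈ selp, e.2 < 248 := by decide +kernel

/-- LINm -/
theorem linM {w : L3} (hy : mx y1 *ᵥ w = w) (hN : nqs w = 0)
    (hT : yso (mx Trip.t1 *ᵥ w) + nqs (yso (mx Trip.t1 *ᵥ w)) = w) :
    ∃ c1 c2 c3 c4 : ZMod 3, w = c1 • vec lw1 + c2 • vec lw2 + c3 • vec lw3 + c4 • vec lw4 := by
  rw [← ME_mulVec] at hT
  rw [nqs_eq] at hN
  have hA : ∀ r ∈ selm.map rowm, Ann w r := by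
    intro r hr
    obtain ⟨e, he, rfl⟩ := List.mem_map.1 hr
    have hlt := selm_lt e he
    unfold rowm
    split
    · exact rep_lN.ann hN hlt
    · exact rep_mY.ann_fix hy hlt
    · exact rep_lE.ann_fix hT hlt
  have h := ker_vec (by rfl) (by decide) chkm hA
  refine ⟨dotp (tun 193) w, dotp (tun 168) w, dotp (tun 230) w, dotp (tun 232) w, h.trans ?_⟩
  simp only [combo, add_zero, add_assoc]

/-- LINp -/
theorem linP {w : L3} (hy : mx y1 *ᵥ w = w) (hN : nqs w = 0)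
    (hT : yso (mx Trip.t1 *ᵥ w) + nqs (yso (mx Trip.t1 *ᵥ w)) = -w) :
    ∃ c5 c6 : ZMod 3, w = c5 • vec lw5 + c6 • vec lw6 := by
  rw [← ME_mulVec] at hT
  rw [nqs_eq] at hN
  have hA : ∀ r ∈ selp.map rowp, Ann w r := by
    intro r hr
    obtain ⟨e, he, rfl⟩ := List.mem_map.1 hr
    have hlt := selp_lt e he
    unfold rowp
    split
    · exact rep_lN.ann hN hlt
    · exact rep_mY.ann_fix hy hlt
    · exact rep_lE.ann_neg hT hlt
  have h := ker_vec (by rfl) (by decide) chkp hA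
  refine ⟨dotp (tun 229) w, dotp (tun 82) w, h.trans ?_⟩
  simp only [combo, add_zero]

end Cfsg.Agent.H74.E83.Ker
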