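import Cfsg.Agent.H74.E83.Trit
import Cfsg.Agent.H74.E83.Sp
import Cfsg.Agent.H751.Two.Code

/-!
# The word engine for the tabulated Chevalley groups over `ZMod 3` (helper74)

A matrix with at most 256 rows and columns is packed into one natural number, 512 bits for each row (`Trit.val`).
* `row V i`, `put V i w` : reading and replacing a row; `semM D V` : the matrix; `idM n` : the identity matrix;
* `mulX X r V` : the code of `x_r(1) * M`, `wc X w V` : the code of `x_{r_1}(1) ⋯ x_{r_k}(1) * M`;
* `coe_wG` : the matrix of a word is `semM D (wc X w (idM (sz D)))`; `eq_of_code` : equality of words.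
-/

set_option autoImplicit false
set_option exponentiation.threshold 600

namespace Cfsg.Agent.H74.E83.Code

open Cfsg.Lie Cfsg.Agent.H74.E83.Trit Cfsg.Agent.H74.E83.Sp Cfsg.Agent.ChevalleyStructure.Elts
open Cfsg.Agent.H751.Two.Word (sz pos posOK)
open Cfsg.Agent.H751.Two.Bits (PosOK)
open Cfsg.Agent.H751.Two.Code (wG wg wG_nil wG_cons wG_append wG_mem wg_nil wg_append)

universe u

/-- row `i` -/
def row (V i : ℕ) : ℕ := Nat.land (Nat.shiftRight V (Nat.mul 512 i)) (2 ^ 512 - 1)

/-- replace row `u` by `w` -/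
def put (V u w : ℕ) : ℕ := Nat.xor V (Nat.shiftLeft (Nat.xor (row V u) w) (Nat.mul 512 u))

theorem testBit_row (V i j : ℕ) : (row V i).testBit j = (V.testBit (512 * i + j) && decide (j < 512)) := by
  unfold row
  rw [land_def, shr_def, Nat.testBit_and, Nat.testBit_shiftRight, Nat.testBit_two_pow_sub_one]
  rfl

theorem row_lt (V i : ℕ) : row V i < 2 ^ 512 := by
  apply lt_of_bits
  intro j hj
  rw [testBit_row]
  have h : ¬ (j < 512) := by omega
  simp [h]

theorem testBit_put (V u w k : ℕ) : (put V u w).testBit k =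
    (V.testBit k ^^ (decide (512 * u ≤ k) && ((row V u).testBit (k - 512 * u) ^^ w.testBit (k - 512 * u)))) := by
  unfold put
  rw [Trit.xor_def, Trit.xor_def, shl_def, Nat.testBit_xor, Nat.testBit_shiftLeft, Nat.testBit_xor]
  rfl

theorem row_put {V u w : ℕ} (hw : w < 2 ^ 512) (i : ℕ) : row (put V u w) i = if i = u then w else row V i := by
  apply Nat.eq_of_testBit_eq
  intro j
  rcases lt_or_ge j 512 with hj | hj
  · rw [testBit_row, testBit_put]
    by_cases h : i = u
    · subst h
      have h1 : 512 * i ≤ 512 * i + j := by omega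
      have h2 : 512 * i + j - 512 * i = j := by omega
      rw [if_pos rfl, h2, testBit_row V i j]
      cases V.testBit (512 * i + j) <;> cases w.testBit j <;> simp [hj]
    · rw [if_neg h, testBit_row V i j]
      rcases lt_or_gt_of_ne h with h' | h'
      · have h1 : ¬ (512 * u ≤ 512 * i + j) := by omega
        simp [h1]
      · have h2 : 512 ≤ 512 * i + j - 512 * u := by omega
        rw [testBit_big (row_lt V u) h2, testBit_big hw h2]
        simp
  · rw [testBit_big (row_lt _ _) hj]
    split_ifs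
    · rw [testBit_big hw hj]
    · rw [testBit_big (row_lt _ _) hj]

/-- all rows are valid -/
def VldM (V : ℕ) : Prop := ∀ i, Vld (row V i)

theorem row_zero (i : ℕ) : row 0 i = 0 := by
  apply Nat.eq_of_testBit_eq
  intro j
  rw [testBit_row]; simp

theorem vldM_zero : VldM 0 := fun i => by rw [row_zero]; exact vld_zero

theorem vldM_put {V u w : ℕ} (hV : VldM V) (hw : Vld w) : VldM (put V u w) := by
  intro i
  rw [row_put hw.lt]
  split_ifs
  · exact hw
  · exact hV i

/-- the identity matrix -/
def idM (n : ℕ) : ℕ := (List.range n).foldr (fun i V => put V i (tun i)) 0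

theorem idM_aux (l : List ℕ) (hl : ∀ i ∈ l, i < 256) : VldM (l.foldr (fun i V => put V i (tun i)) 0) ∧
    ∀ i, row (l.foldr (fun i V => put V i (tun i)) 0) i = if i ∈ l then tun i else 0 := by
  induction l with
  | nil => exact ⟨vldM_zero, fun i => by rw [List.foldr_nil, row_zero]; simp⟩
  | cons a l ih =>
    obtain ⟨h1, h2⟩ := ih fun i hi => hl i (List.mem_cons_of_mem _ hi)
    have ha := vld_un (hl a List.mem_cons_self)
    rw [List.foldr_cons]
    refine ⟨vldM_put h1 ha, fun i => ?_⟩
    rw [row_put ha.lt, h2]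
    by_cases h : i = a
    · subst h; simp
    · simp [h]

theorem vldM_id {n : ℕ} (hn : n ≤ 256) : VldM (idM n) :=
  (idM_aux _ fun i hi => (List.mem_range.1 hi).trans_le hn).1

theorem row_id {n i : ℕ} (hn : n ≤ 256) (hi : i < n) : row (idM n) i = tun i := by
  unfold idM
  rw [(idM_aux _ fun i hi => (List.mem_range.1 hi).trans_le hn).2, if_pos (List.mem_range.2 hi)]

/-! ### sparse matrices with entries `±1` -/

/-- row, column, sign (`true` : `-1`) -/
abbrev SpT := List (ℕ × ℕ × Bool)

/-- one entry -/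
def stepE (V0 : ℕ) (e : ℕ × ℕ × Bool) (acc : ℕ) : ℕ :=
  put acc e.1 (bif e.2.2 then tsub (row acc e.1) (row V0 e.2.1) else tadd (row acc e.1) (row V0 e.2.1))

/-- the code of `(1 + l) * M` -/
def mulS (l : SpT) (V : ℕ) : ℕ :=
  match V with
  | 0 => 0
  | V => l.foldr (stepE V) V

/-- the sign -/
def sg (b : Bool) : ZMod 3 := bif b then -1 else 1

section sem

variable (D : ChevalleyDatum)

/-- the matrix of a code -/
def semM (V : ℕ) : Matrix D.Idx D.Idx (ZMod 3) := Matrix.of fun i j => val (row V (pos D i)) (pos D j)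

theorem semM_apply (V : ℕ) (i j : D.Idx) : semM D V i j = val (row V (pos D i)) (pos D j) := rfl

/-- the sparse matrix -/
def semT (l : SpT) : Matrix D.Idx D.Idx (ZMod 3) :=
  Matrix.of fun i j => (l.map fun e => if e.1 = pos D i ∧ e.2.1 = pos D j then sg e.2.2 else 0).sum

theorem semT_apply (l : SpT) (i j : D.Idx) :
    semT D l i j = (l.map fun e => if e.1 = pos D i ∧ e.2.1 = pos D j then sg e.2.2 else 0).sum := rfl

theorem semT_nil : semT D [] = 0 := by ext i j; simp [semT_apply]

theorem semT_cons (e : ℕ × ℕ × Bool) (l : SpT) : semT D (e :: l) = semT D [e] + semT D l := by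
  ext i j
  rw [Matrix.add_apply, semT_apply, semT_apply, semT_apply]
  simp

variable {D}

theorem vld_step {V0 acc : ℕ} {e : ℕ × ℕ × Bool} (h0 : VldM V0) (h : VldM acc) :
    Vld (bif e.2.2 then tsub (row acc e.1) (row V0 e.2.1) else tadd (row acc e.1) (row V0 e.2.1)) := by
  cases e.2.2
  · exact vld_add (h _) (h0 _)
  · exact vld_sub (h _) (h0 _)

theorem vldM_step {V0 acc : ℕ} {e : ℕ × ℕ × Bool} (h0 : VldM V0) (h : VldM acc) : VldM (stepE V0 e acc) :=
  vldM_put h (vld_step h0 h)

theorem sem_step (hD : sz D ≤ 256) {V0 acc : ℕ} {e : ℕ × ℕ × Bool} (h0 : VldM V0) (h : VldM acc) (he : e.2.1 < sz D) :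
    semM D (stepE V0 e acc) = semM D acc + semT D [e] * semM D V0 := by
  obtain ⟨k, hk⟩ := (posOK D).surj e.2.1 he
  ext i j
  have hj : pos D j < 256 := ((posOK D).lt j).trans_le hD
  rw [Matrix.add_apply, Matrix.mul_apply, semM_apply, semM_apply, stepE, row_put (vld_step h0 h).lt,
    Finset.sum_eq_single k]
  · rw [semT_apply, semM_apply]
    by_cases hi : pos D i = e.1
    · rw [if_pos hi]
      cases hc : e.2.2
      · rw [cond_false, val_add (h _) (h0 _) hj]
        simp [hi, hk, sg, hc]
      · rw [cond_true, val_sub (h _) (h0 _) hj]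
        simp [hi, hk, sg, hc, sub_eq_add_neg]
    · rw [if_neg hi]
      have h' : ¬ (e.1 = pos D i) := fun e => hi e.symm
      simp [h']
  · intro b _ hb
    have : ¬ (e.2.1 = pos D b) := by
      intro e
      apply hb
      apply (posOK D).inj
      rw [← e, hk]
    rw [semT_apply]
    simp [this]
  · intro h
    exact absurd (Finset.mem_univ _) h

/-- all columns are in range -/
def okS (n : ℕ) (l : SpT) : Bool := l.all fun e => Nat.blt e.2.1 n

theorem sem_mulS (hD : sz D ≤ 256) {l : SpT} (hl : okS (sz D) l = true) {V : ℕ} (hV : VldM V) :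
    VldM (mulS l V) ∧ semM D (mulS l V) = (1 + semT D l) * semM D V := by
  have key : ∀ V : ℕ, VldM V → VldM (l.foldr (stepE V) V) ∧
      semM D (l.foldr (stepE V) V) = (1 + semT D l) * semM D V := by
    intro V hV
    induction l with
    | nil => exact ⟨hV, by rw [semT_nil, add_zero, one_mul]; rfl⟩
    | cons e l ih =>
      have h1 : Nat.blt e.2.1 (sz D) = true ∧ okS (sz D) l = true := by
        simpa only [okS, List.all_cons, Bool.and_eq_true] using hl
      obtain ⟨h2, h3⟩ := ih h1.2
      rw [List.foldr_cons]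
      refine ⟨vldM_step hV h2, ?_⟩
      rw [sem_step hD hV h2 (by simpa [Nat.blt_eq] using h1.1), h3, semT_cons D e l]
      noncomm_ring
  unfold mulS
  cases V with
  | zero =>
    refine ⟨vldM_zero, ?_⟩
    have h0 : semM D 0 = 0 := by
      ext i j
      rw [semM_apply, row_zero, val_zero]; rfl
    rw [h0, mul_zero]
    exact h0
  | succ n => exact key (n + 1) hV

theorem sem_id (hD : sz D ≤ 256) : semM D (idM (sz D)) = 1 := by
  ext i j
  rw [semM_apply, row_id hD ((posOK D).lt i), val_un (((posOK D).lt i).trans_le hD), Matrix.one_apply]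
  by_cases h : i = j
  · subst h; simp
  · have h' : ¬ pos D j = pos D i := fun e => h ((posOK D).inj e).symm
    simp [h, h']

end sem

/-! ### tables of root elements -/

/-- reduction modulo 3 -/
def norm1 (e : ℕ × ℕ × ℤ) : Option (ℕ × ℕ × Bool) :=
  match (e.2.2 % 3).toNat with
  | 0 => none
  | 1 => some (e.1, e.2.1, false)
  | _ => some (e.1, e.2.1, true)

/-- reduction modulo 3 -/
def norm : SpZ → SpT
  | [] => []
  | e :: l => match norm1 e with
    | none => norm l
    | some e' => e' :: norm l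

theorem semT_norm (D : ChevalleyDatum) (l : SpZ) : semT D (norm l) = semZ D (ZMod 3) l := by
  induction l with
  | nil => ext i j; simp [semT_apply, semZ_apply, norm]
  | cons e l ih =>
    have h1 : semZ D (ZMod 3) (e :: l) = semZ D (ZMod 3) [e] + semZ D (ZMod 3) l := by
      ext i j
      rw [Matrix.add_apply, semZ_apply, semZ_apply, semZ_apply]
      simp
    rw [h1, ← ih]
    obtain ⟨a, b, c⟩ := e
    have hc : ((c : ℤ) : ZMod 3) = ((c % 3 : ℤ) : ZMod 3) := (ZMod.intCast_mod c 3).symm
    have h3 : c % 3 = 0 ∨ c % 3 = 1 ∨ c % 3 = 2 := by omega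
    rcases h3 with h | h | h
    · have h4 : norm1 (a, b, c) = none := by unfold norm1; rw [show ((a, b, c) : ℕ × ℕ × ℤ).2.2 = c from rfl, h]; rfl
      rw [norm, h4]
      ext i j
      rw [Matrix.add_apply, semZ_apply]
      simp [hc, h]
    · have h4 : norm1 (a, b, c) = some (a, b, false) := by
        unfold norm1; rw [show ((a, b, c) : ℕ × ℕ × ℤ).2.2 = c from rfl, h]; rfl
      rw [norm, h4]
      show semT D ((a, b, false) :: norm l) = _
      rw [semT_cons]
      congr 1
      ext i j
      rw [semZ_apply, semT_apply]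
      have h6 : ptZ (ZMod 3) (pos D i) (pos D j) (a, b, c) = if a = pos D i ∧ b = pos D j then ((c : ℤ) : ZMod 3) else 0 := rfl
      simp [h6, hc, h, sg]
    · have h4 : norm1 (a, b, c) = some (a, b, true) := by
        unfold norm1; rw [show ((a, b, c) : ℕ × ℕ × ℤ).2.2 = c from rfl, h]; rfl
      rw [norm, h4]
      show semT D ((a, b, true) :: norm l) = _
      rw [semT_cons]
      congr 1
      ext i j
      rw [semZ_apply, semT_apply]
      have h5 : ((2 : ℤ) : ZMod 3) = -1 := by decide
      have h6 : ptZ (ZMod 3) (pos D i) (pos D j) (a, b, c) = if a = pos D i ∧ b = pos D j then ((c : ℤ) : ZMod 3) else 0 := rfl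
      simp only [List.map_cons, List.map_nil, List.sum_cons, List.sum_nil, add_zero, h6, hc, h, sg, cond_true, h5]

/-- boolean equality -/
def beqT : SpT → SpT → Bool
  | [], [] => true
  | a :: l, b :: m => Nat.beq a.1 b.1 && (Nat.beq a.2.1 b.2.1 && ((a.2.2 == b.2.2) && beqT l m))
  | _, _ => false

theorem eq_of_beqT : ∀ {l m : SpT}, beqT l m = true → l = m
  | [], [], _ => rfl
  | a :: l, b :: m, h => by
    unfold beqT at h
    rw [Bool.and_eq_true, Bool.and_eq_true, Bool.and_eq_true] at h
    obtain ⟨h1, h2, h3, h4⟩ := h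
    rw [eq_of_beqT h4]
    obtain ⟨a1, a2, a3⟩ := a
    obtain ⟨b1, b2, b3⟩ := b
    have e1 : a1 = b1 := Nat.eq_of_beq_eq_true h1
    have e2 : a2 = b2 := Nat.eq_of_beq_eq_true h2
    have e3 : a3 = b3 := eq_of_beq h3
    rw [e1, e2, e3]
  | [], b :: m, h => by exact absurd h (by simp [beqT])
  | a :: l, [], h => by exact absurd h (by simp [beqT])

/-- look up a root in the table -/
def look (X : List (ℕ × SpT)) (r : ℕ) : SpT :=
  match X with
  | [] => []
  | e :: X => bif Nat.beq e.1 r then e.2 else look X r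

/-- the root is in the table -/
def hasR (X : List (ℕ × SpT)) (r : ℕ) : Bool :=
  match X with
  | [] => false
  | e :: X => bif Nat.beq e.1 r then true else hasR X r

/-- the table is correct -/
def okT (D : ChevalleyDatum) (X : List (ℕ × SpT)) : Bool :=
  X.all fun e => Nat.blt e.1 D.nroots && okS (sz D) e.2 && beqT e.2 (norm (XlsZ D e.1))

theorem look_spec {D : ChevalleyDatum} {X : List (ℕ × SpT)} (hX : okT D X = true) {r : ℕ} (hr : hasR X r = true) :
    r < D.nroots ∧ okS (sz D) (look X r) = true ∧ look X r = norm (XlsZ D r) := by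
  induction X with
  | nil => exact absurd hr (by simp [hasR])
  | cons e X ih =>
    unfold okT at hX
    rw [List.all_cons, Bool.and_eq_true, Bool.and_eq_true, Bool.and_eq_true] at hX
    obtain ⟨⟨⟨h1, h2⟩, h3⟩, h4⟩ := hX
    unfold hasR at hr
    unfold look
    cases h : Nat.beq e.1 r with
    | true =>
      rw [cond_true]
      have h5 : e.1 = r := Nat.eq_of_beq_eq_true h
      subst h5
      exact ⟨by simpa [Nat.blt_eq] using h1, h2, eq_of_beqT h3⟩
    | false =>
      rw [cond_false]
      rw [h, cond_false] at hr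
      exact ih h4 hr

/-- the code of `x_r(1) * M` -/
def mulX (X : List (ℕ × SpT)) (r V : ℕ) : ℕ := mulS (look X r) V

/-- the code of `x_{r_1}(1) ⋯ x_{r_k}(1) * M` -/
def wc (X : List (ℕ × SpT)) (w : List ℕ) (V : ℕ) : ℕ := w.foldr (mulX X) V

theorem wc_nil (X : List (ℕ × SpT)) (V : ℕ) : wc X [] V = V := rfl
theorem wc_cons (X : List (ℕ × SpT)) (r : ℕ) (w : List ℕ) (V : ℕ) : wc X (r :: w) V = mulX X r (wc X w V) := rfl
theorem wc_append (X : List (ℕ × SpT)) (w v : List ℕ) (V : ℕ) : wc X (w ++ v) V = wc X w (wc X v V) := by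
  unfold wc; rw [List.foldr_append]

/-- all letters are in the table -/
def okW (X : List (ℕ × SpT)) (w : List ℕ) : Bool := w.all (hasR X)

theorem okW_cons {X : List (ℕ × SpT)} {r : ℕ} {w : List ℕ} (h : okW X (r :: w) = true) :
    hasR X r = true ∧ okW X w = true := by
  unfold okW at h ⊢
  rwa [List.all_cons, Bool.and_eq_true] at h

variable {D : ChevalleyDatum} (hD : InList D) (hs : sz D ≤ 256) {X : List (ℕ × SpT)} (hX : okT D X = true)

include hs hX

theorem sem_mulX {r : ℕ} (hr : hasR X r = true) {V : ℕ} (hV : VldM V) :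
    VldM (mulX X r V) ∧ semM D (mulX X r V) = D.x (ZMod 3) r 1 * semM D V := by
  obtain ⟨h1, h2, h3⟩ := look_spec hX hr
  have h4 := sem_mulS hs h2 hV
  refine ⟨h4.1, ?_⟩
  rw [mulX, h4.2, x_one_eqZ D h1, h3, semT_norm]

theorem sem_wc {w : List ℕ} (hw : okW X w = true) {V : ℕ} (hV : VldM V) :
    VldM (wc X w V) ∧ semM D (wc X w V) = (wG hD (ZMod 3) w : Matrix D.Idx D.Idx (ZMod 3)) * semM D V := by
  induction w with
  | nil => exact ⟨hV, by rw [wc_nil, wG_nil, Units.val_one, one_mul]⟩
  | cons r w ih =>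
    obtain ⟨h1, h2⟩ := okW_cons hw
    obtain ⟨h3, h4⟩ := ih h2
    obtain ⟨h5, h6⟩ := sem_mulX hs hX h1 h3
    exact ⟨h5, by rw [wc_cons, h6, h4, wG_cons, Units.val_mul, mul_assoc, coe_xG]⟩

include hD in
theorem vldM_wc {w : List ℕ} (hw : okW X w = true) : VldM (wc X w (idM (sz D))) :=
  (sem_wc hD hs hX hw (vldM_id hs)).1

theorem coe_wG {w : List ℕ} (hw : okW X w = true) :
    (wG hD (ZMod 3) w : Matrix D.Idx D.Idx (ZMod 3)) = semM D (wc X w (idM (sz D))) := by
  rw [(sem_wc hD hs hX hw (vldM_id hs)).2, sem_id hs, mul_one]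

/-- equality of words -/
theorem eq_of_code {a b : List ℕ} (ha : okW X a = true) (hb : okW X b = true)
    (h : Nat.beq (wc X a (idM (sz D))) (wc X b (idM (sz D))) = true) : wG hD (ZMod 3) a = wG hD (ZMod 3) b := by
  apply Units.ext
  rw [coe_wG hD hs hX ha, coe_wG hD hs hX hb, Nat.eq_of_beq_eq_true h]

end Cfsg.Agent.H74.E83.Code
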