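import Cfsg.Agent.H74.E83.Code

/-!
# Elimination over `ZMod 3` on packed rows (helper74)

`elim rs cs` : Gaussian elimination on the rows `rs` with pivots in the columns `cs`; `elim_sound` : if it succeeds, a vector
killed by all the rows is zero in the columns `cs` (the rows being zero outside `cs`).
-/

set_option autoImplicit false
set_option exponentiation.threshold 600

namespace Cfsg.Agent.H74.E83.Elim

open Cfsg.Lie Cfsg.Agent.H74.E83.Trit Cfsg.Agent.H74.E83.Code
open Cfsg.Agent.H751.Two.Word (sz pos posOK)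
open Cfsg.Agent.H751.Two.Bits (PosOK)

/-- bit `c` -/
def bt (w c : ℕ) : ℕ := Nat.land (Nat.shiftRight w c) 1

theorem bt_eq (w c : ℕ) : (Nat.beq (bt w c) 1) = w.testBit c := by
  unfold bt
  rw [land_def, shr_def, Nat.and_one_is_mod]
  rcases h : w.testBit c with _ | _
  · rw [Nat.testBit_eq_decide_div_mod_eq, decide_eq_false_iff_not] at h
    rw [Nat.shiftRight_eq_div_pow]
    have : w / 2 ^ c % 2 = 0 := by omega
    rw [this]; rfl
  · rw [Nat.testBit_eq_decide_div_mod_eq, decide_eq_true_iff] at h
    rw [Nat.shiftRight_eq_div_pow, h]; rfl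

/-- coefficient `1` in column `c` (if it is `-1`: the negative row) -/
def nrm (r c : ℕ) : ℕ := bif Nat.beq (bt r c) 1 then r else tneg r

/-- clear column `c` of `s` with the row `r` (coefficient 1) -/
def red (r c s : ℕ) : ℕ := bif Nat.beq (bt s c) 1 then tsub s r else bif Nat.beq (bt s (256 + c)) 1 then tadd s r else s

/-- elimination -/
def elim : List ℕ → List ℕ → Bool
  | [], [] => true
  | r :: rs, c :: cs => Nat.beq (bt (nrm r c) c) 1 && elim (rs.map (red (nrm r c) c)) cs
  | _, _ => false

section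

variable {D : ChevalleyDatum}

/-- the value of a packed functional -/
def dotp (w : ℕ) (v : D.Idx → ZMod 3) : ZMod 3 := ∑ j, val w (pos D j) * v j

/-- a valid functional which kills `v` -/
def Ann (v : D.Idx → ZMod 3) (w : ℕ) : Prop := Vld w ∧ dotp w v = 0

variable (hs : sz D ≤ 256) {v : D.Idx → ZMod 3}

include hs

theorem pos_lt (j : D.Idx) : pos D j < 256 := ((posOK D).lt j).trans_le hs

theorem Ann.neg {w : ℕ} (h : Ann v w) : Ann v (tneg w) := by
  refine ⟨vld_neg h.1, ?_⟩
  have h2 := h.2
  unfold dotp at h2 ⊢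
  rw [Finset.sum_congr rfl fun j _ => by rw [val_neg h.1 (pos_lt hs j), neg_mul], Finset.sum_neg_distrib, h2, neg_zero]

theorem Ann.add {a b : ℕ} (ha : Ann v a) (hb : Ann v b) : Ann v (tadd a b) := by
  refine ⟨vld_add ha.1 hb.1, ?_⟩
  have h1 := ha.2
  have h2 := hb.2
  unfold dotp at h1 h2 ⊢
  rw [Finset.sum_congr rfl fun j _ => by rw [val_add ha.1 hb.1 (pos_lt hs j), add_mul], Finset.sum_add_distrib, h1, h2,
    add_zero]

theorem Ann.sub {a b : ℕ} (ha : Ann v a) (hb : Ann v b) : Ann v (tsub a b) := by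
  rw [tsub_eq hb.1.lt]; exact ha.add hs (hb.neg hs)

omit hs in
theorem tz_one {w c : ℕ} (h : Vld w) (hc : c < 256) (h1 : w.testBit c = true) : val w c = 1 := by
  unfold val
  have h2 := h.ok c hc
  rw [h1, Bool.true_and] at h2
  rw [h1, h2]; rfl

theorem nrm_ann {r c : ℕ} (h : Ann v r) : Ann v (nrm r c) := by
  unfold nrm
  cases Nat.beq (bt r c) 1
  · exact h.neg hs
  · exact h

theorem nrm_zero {r c : ℕ} (h : Ann v r) {j : D.Idx} (hj : val r (pos D j) = 0) : val (nrm r c) (pos D j) = 0 := by
  unfold nrm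
  cases Nat.beq (bt r c) 1
  · rw [cond_false, val_neg h.1 (pos_lt hs j), hj, neg_zero]
  · rw [cond_true, hj]

theorem red_ann {r c s : ℕ} (hr : Ann v r) (h : Ann v s) : Ann v (red r c s) := by
  unfold red
  cases Nat.beq (bt s c) 1
  · rw [cond_false]
    cases Nat.beq (bt s (256 + c)) 1
    · exact h
    · exact h.add hs hr
  · exact h.sub hs hr

theorem red_zero {r c s : ℕ} (hr : Ann v r) (h : Ann v s) {j : D.Idx} (hj : val r (pos D j) = 0)
    (hj' : val s (pos D j) = 0) : val (red r c s) (pos D j) = 0 := by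
  unfold red
  cases Nat.beq (bt s c) 1
  · rw [cond_false]
    cases Nat.beq (bt s (256 + c)) 1
    · exact hj'
    · rw [cond_true, val_add h.1 hr.1 (pos_lt hs j), hj, hj', add_zero]
  · rw [cond_true, val_sub h.1 hr.1 (pos_lt hs j), hj, hj', sub_zero]

omit hs in
theorem red_piv {r c s : ℕ} (hr : Ann v r) (h : Ann v s) (hc : c < 256) (h1 : val r c = 1) : val (red r c s) c = 0 := by
  unfold red
  rw [bt_eq, bt_eq]
  rcases h2 : s.testBit c with _ | _
  · rw [cond_false]
    rcases h3 : s.testBit (256 + c) with _ | _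
    · rw [cond_false]; unfold val; rw [h2, h3]; rfl
    · rw [cond_true, val_add h.1 hr.1 hc, h1]
      unfold val; rw [h2, h3]; decide
  · rw [cond_true, val_sub h.1 hr.1 hc, h1, tz_one h.1 hc h2, sub_self]

theorem elim_sound : ∀ (cs rs : List ℕ), elim rs cs = true → (∀ w ∈ rs, Ann v w) →
    (∀ w ∈ rs, ∀ j : D.Idx, pos D j ∉ cs → val w (pos D j) = 0) → ∀ j : D.Idx, pos D j ∈ cs → v j = 0
  | [], _, _, _, _ => fun j hj => absurd hj List.not_mem_nil
  | c :: cs, [], h, _, _ => by exact absurd h (by simp [elim])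
  | c :: cs, r :: rs, h, hA, hZ => by
    unfold elim at h
    rw [Bool.and_eq_true, bt_eq] at h
    obtain ⟨h1, h2⟩ := h
    have hr : Ann v r := hA r List.mem_cons_self
    have hr' : Ann v (nrm r c) := nrm_ann hs hr
    have hrs : ∀ w ∈ rs, Ann v w := fun w hw => hA w (List.mem_cons_of_mem _ hw)
    have ih := elim_sound cs (rs.map (red (nrm r c) c)) h2 (by
      intro w hw
      obtain ⟨s, hs', rfl⟩ := List.mem_map.1 hw
      exact red_ann hs hr' (hrs s hs')) (by
      intro w hw j hj
      obtain ⟨s, hs', rfl⟩ := List.mem_map.1 hw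
      by_cases h3 : pos D j = c
      · rw [h3]
        have hc : c < 256 := by rw [← h3]; exact pos_lt hs j
        exact red_piv hr' (hrs s hs') hc (tz_one hr'.1 hc h1)
      · have h4 : pos D j ∉ c :: cs := fun h5 => (List.mem_cons.1 h5).elim h3 hj
        exact red_zero hs hr' (hrs s hs') (nrm_zero hs hr (hZ r List.mem_cons_self j h4))
          (hZ s (List.mem_cons_of_mem _ hs') j h4))
    intro j hj
    rcases List.mem_cons.1 hj with h3 | h3
    · have hc : c < 256 := by rw [← h3]; exact pos_lt hs j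
      have h4 := hr'.2
      unfold dotp at h4
      rw [Finset.sum_eq_single j] at h4
      · rw [h3, tz_one hr'.1 hc h1, one_mul] at h4
        exact h4
      · intro i _ hi
        by_cases h5 : pos D i ∈ cs
        · rw [ih i h5, mul_zero]
        · have h6 : pos D i ∉ c :: cs := fun h7 => (List.mem_cons.1 h7).elim
            (fun h8 => hi ((posOK D).inj (h8.trans h3.symm))) h5
          rw [nrm_zero hs hr (hZ r List.mem_cons_self i h6), zero_mul]
      · intro h5
        exact absurd (Finset.mem_univ _) h5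
    · exact ih j h3

/-- row `i` of `M - 1` -/
def fixRow (V i : ℕ) : ℕ := tsub (row V i) (tun i)

theorem ann_fixRow {V : ℕ} (hV : VldM V) (hv : (semM D V).mulVec v = v) {i : ℕ} (hi : i < sz D) : Ann v (fixRow V i) := by
  obtain ⟨k, rfl⟩ := (posOK D).surj i hi
  have hk : pos D k < 256 := pos_lt hs k
  refine ⟨vld_sub (hV _) (vld_un hk), ?_⟩
  unfold dotp fixRow
  have h1 := congrFun hv k
  rw [Matrix.mulVec, dotProduct] at h1
  rw [Finset.sum_congr rfl fun j _ => by rw [val_sub (hV _) (vld_un hk) (pos_lt hs j), sub_mul], Finset.sum_sub_distrib]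
  have h2 : ∑ j, val (tun (pos D k)) (pos D j) * v j = v k := by
    rw [Finset.sum_eq_single k]
    · rw [val_un hk, if_pos rfl, one_mul]
    · intro j _ hj
      rw [val_un hk, if_neg (fun h => hj ((posOK D).inj h)), zero_mul]
    · intro h5
      exact absurd (Finset.mem_univ _) h5
  rw [h2, sub_eq_zero]
  exact h1

end

end Cfsg.Agent.H74.E83.Elim
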