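import Cfsg.Agent.H74.E83.Trip
import Cfsg.Agent.H64.E83.Iota

/-!
# Kernels of systems of linear equations over `F₃` on the Lie algebra of `E₈(3)` (helper74, S5925, box K)

* `Rep V M` : `V` is a valid code of the matrix `M`; `Rep.one`, `Rep.word`, `Rep.add`, `Rep.sub`;
* `gj rs cs` : Gauss–Jordan elimination; `ker_sound` : every `v` killed by the rows is `∑ c_k • (column k of W)`.
-/

set_option autoImplicit false
set_option maxRecDepth 100000
set_option exponentiation.threshold 600

namespace Cfsg.Agent.H74.E83.Ker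

open Matrix Cfsg.Lie Cfsg.Agent.ChevalleyStructure.Elts
open Cfsg.Agent.H992.E8X
open Cfsg.Agent.H238.E8
open Cfsg.Agent.H788.E83 (SL5 it Lt ev wx wy wt wfa wfb ws As Ax Ay At Afa Afb)
open Cfsg.Agent.H64.E83 (mx L3 er vec Ph)
open Cfsg.Agent.H74.E83 Cfsg.Agent.H74.E83.Trit Cfsg.Agent.H74.E83.Code Cfsg.Agent.H74.E83.Elim Cfsg.Agent.H74.E83.Trip
open Cfsg.Agent.H751.Two.Word (sz pos posOK)

theorem ph_eq : ph = Ph := rfl

/-! ### sums of codes -/

/-- rowwise operation -/
def opM (f : ℕ → ℕ → ℕ) (n U V : ℕ) : ℕ :=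
  match U with
  | 0 => (List.range n).foldr (fun i acc => put acc i (f (row acc i) 0)) V
  | U => (List.range n).foldr (fun i acc => put acc i (f (row acc i) (row U i))) V

theorem opM_eq (f : ℕ → ℕ → ℕ) (n U V : ℕ) :
    opM f n U V = (List.range n).foldr (fun i acc => put acc i (f (row acc i) (row U i))) V := by
  unfold opM
  cases U with
  | zero => simp only [row_zero]
  | succ U => rfl

/-- the sum `V + U` -/
def addM (U V : ℕ) : ℕ := opM tadd 248 U V

/-- the difference `V - U` -/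
def subM (U V : ℕ) : ℕ := opM tsub 248 U V

theorem op_aux {f : ℕ → ℕ → ℕ} (hf : ∀ a b, Vld a → Vld b → Vld (f a b)) {U V : ℕ} (hU : VldM U) (hV : VldM V) (l : List ℕ)
    (hnd : l.Nodup) : VldM (l.foldr (fun i acc => put acc i (f (row acc i) (row U i))) V) ∧
      ∀ i, row (l.foldr (fun i acc => put acc i (f (row acc i) (row U i))) V) i =
        if i ∈ l then f (row V i) (row U i) else row V i := by
  induction l with
  | nil => exact ⟨hV, fun i => by simp⟩
  | cons a l ih =>
    obtain ⟨h1, h2⟩ := ih (List.nodup_cons.1 hnd).2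
    have ha := (List.nodup_cons.1 hnd).1
    rw [List.foldr_cons]
    have hv : Vld (f (row (l.foldr (fun i acc => put acc i (f (row acc i) (row U i))) V) a) (row U a)) :=
      hf _ _ (h1 a) (hU a)
    refine ⟨vldM_put h1 hv, fun i => ?_⟩
    rw [row_put hv.lt, h2 i]
    by_cases h : i = a
    · subst h
      rw [if_pos rfl, h2 i, if_neg ha, if_pos List.mem_cons_self]
    · rw [if_neg h]
      by_cases h' : i ∈ l
      · rw [if_pos h', if_pos (List.mem_cons_of_mem _ h')]
      · rw [if_neg h', if_neg (fun h3 => (List.mem_cons.1 h3).elim h h')]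

/-- a valid code of `M` -/
structure Rep (V : ℕ) (M : Matrix chevE8.Idx chevE8.Idx (ZMod 3)) : Prop where
  vld : VldM V
  sem : semM chevE8 V = M

theorem pos_lt' (j : chevE8.Idx) : pos chevE8 j < 248 := by
  have := (posOK chevE8).lt j
  rwa [sz_eq] at this

theorem Rep.one : Rep (idM 248) 1 := by
  refine ⟨vldM_id (by norm_num), ?_⟩
  have h := sem_id (D := chevE8) sz_le
  rwa [sz_eq] at h

theorem Rep.word {V : ℕ} {M : Matrix chevE8.Idx chevE8.Idx (ZMod 3)} (h : Rep V M) {w : List Lt} (hw : ∀ l ∈ w, gd l)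
    (hk : okW TX (phw w) = true) : Rep (wc TX (phw w) V) (mx (Ph (ev w)) * M) := by
  obtain ⟨h1, h2⟩ := sem_wc hE8 sz_le TX_ok hk h.vld
  refine ⟨h1, ?_⟩
  rw [h2, h.sem, ← ph_eq]
  show _ = ((ph (ev w) : GL chevE8.Idx (ZMod 3)) : Matrix chevE8.Idx chevE8.Idx (ZMod 3)) * M
  rw [coe_ph_wG hw]

theorem Rep.add {U V : ℕ} {A B : Matrix chevE8.Idx chevE8.Idx (ZMod 3)} (hA : Rep U A) (hB : Rep V B) :
    Rep (addM U V) (B + A) := by
  obtain ⟨h1, h2⟩ := op_aux (f := tadd) (fun a b ha hb => vld_add ha hb) hA.vld hB.vld (List.range 248) List.nodup_range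
  rw [addM, opM_eq]
  refine ⟨h1, ?_⟩
  ext i j
  have hi := pos_lt' i
  have hj : pos chevE8 j < 256 := (pos_lt' j).trans (by norm_num)
  rw [semM_apply, h2, if_pos (List.mem_range.2 hi), val_add (hB.vld _) (hA.vld _) hj, Matrix.add_apply, ← hA.sem, ← hB.sem,
    semM_apply, semM_apply]

theorem Rep.sub {U V : ℕ} {A B : Matrix chevE8.Idx chevE8.Idx (ZMod 3)} (hA : Rep U A) (hB : Rep V B) :
    Rep (subM U V) (B - A) := by
  obtain ⟨h1, h2⟩ := op_aux (f := tsub) (fun a b ha hb => vld_sub ha hb) hA.vld hB.vld (List.range 248) List.nodup_range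
  rw [subM, opM_eq]
  refine ⟨h1, ?_⟩
  ext i j
  have hi := pos_lt' i
  have hj : pos chevE8 j < 256 := (pos_lt' j).trans (by norm_num)
  rw [semM_apply, h2, if_pos (List.mem_range.2 hi), val_sub (hB.vld _) (hA.vld _) hj, Matrix.sub_apply, ← hA.sem, ← hB.sem,
    semM_apply, semM_apply]

theorem Rep.cast {V : ℕ} {M M' : Matrix chevE8.Idx chevE8.Idx (ZMod 3)} (h : Rep V M) (e : M = M') : Rep V M' := e ▸ h

/-- a row of the code of a matrix which kills `v` -/
theorem Rep.ann {V : ℕ} {M : Matrix chevE8.Idx chevE8.Idx (ZMod 3)} (h : Rep V M) {v : L3} (hv : M *ᵥ v = 0) {i : ℕ}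
    (hi : i < 248) : Ann v (row V i) := by
  obtain ⟨k, rfl⟩ := (posOK chevE8).surj i (by rw [sz_eq]; exact hi)
  refine ⟨h.vld _, ?_⟩
  have h1 := congrFun hv k
  rw [← h.sem] at h1
  exact h1

/-- equality of codes -/
theorem Rep.unique {V : ℕ} {M M' : Matrix chevE8.Idx chevE8.Idx (ZMod 3)} (h : Rep V M) (h' : Rep V M') : M = M' :=
  h.sem.symm.trans h'.sem

/-! ### Gauss–Jordan elimination -/

/-- elimination, `done` : the finished rows -/
def gj : List ℕ → List ℕ → List ℕ → List ℕ
  | done, r :: rs, c :: cs => gj (nrm r c :: done.map (red (nrm r c) c)) (rs.map (red (nrm r c) c)) cs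
  | done, _, _ => done

theorem gj_ann {v : L3} : ∀ (done rs cs : List ℕ), (∀ w ∈ done, Ann v w) → (∀ w ∈ rs, Ann v w) →
    ∀ w ∈ gj done rs cs, Ann v w
  | done, [], cs, h1, _ => by unfold gj; exact h1
  | done, r :: rs, [], h1, _ => by unfold gj; exact h1
  | done, r :: rs, c :: cs, h1, h2 => by
    unfold gj
    have hr : Ann v (nrm r c) := nrm_ann sz_le (h2 r List.mem_cons_self)
    apply gj_ann
    · intro w hw
      rcases List.mem_cons.1 hw with rfl | hw
      · exact hr
      · obtain ⟨s, hs, rfl⟩ := List.mem_map.1 hw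
        exact red_ann sz_le hr (h1 s hs)
    · intro w hw
      obtain ⟨s, hs, rfl⟩ := List.mem_map.1 hw
      exact red_ann sz_le hr (h2 s (List.mem_cons_of_mem _ hs))

/-- the functional `v_c - ∑ W(c, k) v_{f_k}` -/
def xr (R c : ℕ) : ℕ → List ℕ → ℕ
  | _, [] => tun c
  | k, f :: fs => bif Nat.beq (bt R k) 1 then tsub (xr R c (k + 1) fs) (tun f) else
      bif Nat.beq (bt R (256 + k)) 1 then tadd (xr R c (k + 1) fs) (tun f) else xr R c (k + 1) fs

/-- the value at a position -/
def vn (v : L3) (n : ℕ) : ZMod 3 := dotp n v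

theorem dotp_tun (v : L3) (j : chevE8.Idx) : dotp (tun (pos chevE8 j)) v = v j := by
  unfold dotp
  have hk : pos chevE8 j < 256 := (pos_lt' j).trans (by norm_num)
  rw [Finset.sum_eq_single j]
  · rw [val_un hk, if_pos rfl, one_mul]
  · intro i _ hi
    rw [val_un hk, if_neg (fun h => hi ((posOK chevE8).inj h)), zero_mul]
  · intro h5
    exact absurd (Finset.mem_univ _) h5

theorem dotp_add {a b : ℕ} (ha : Vld a) (hb : Vld b) (v : L3) : dotp (tadd a b) v = dotp a v + dotp b v := by
  unfold dotp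
  rw [← Finset.sum_add_distrib]
  exact Finset.sum_congr rfl fun j _ => by rw [val_add ha hb (pos_lt sz_le j), add_mul]

theorem dotp_sub {a b : ℕ} (ha : Vld a) (hb : Vld b) (v : L3) : dotp (tsub a b) v = dotp a v - dotp b v := by
  unfold dotp
  rw [← Finset.sum_sub_distrib]
  exact Finset.sum_congr rfl fun j _ => by rw [val_sub ha hb (pos_lt sz_le j), sub_mul]

/-- the linear combination of the free coordinates -/
def lc (R : ℕ) (v : L3) : ℕ → List ℕ → ZMod 3
  | _, [] => 0
  | k, f :: fs => val R k * dotp (tun f) v + lc R v (k + 1) fs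

theorem tz_neg {w c : ℕ} (h1 : w.testBit c = false) (h2 : w.testBit (256 + c) = true) : val w c = -1 := by
  unfold val
  rw [h1, h2]; decide

theorem tz_zero {w c : ℕ} (h1 : w.testBit c = false) (h2 : w.testBit (256 + c) = false) : val w c = 0 := by
  unfold val
  rw [h1, h2]; decide

theorem dotp_xr {R c : ℕ} (hR : Vld R) (hc : c < 256) (v : L3) : ∀ (k : ℕ) (fs : List ℕ), k + fs.length ≤ 256 →
    (∀ f ∈ fs, f < 256) → Vld (xr R c k fs) ∧ dotp (xr R c k fs) v = dotp (tun c) v - lc R v k fs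
  | k, [], _, _ => ⟨vld_un hc, by unfold lc; rw [sub_zero]; rfl⟩
  | k, f :: fs, hk, hf => by
    have hk' : k + 1 + fs.length ≤ 256 := by rw [List.length_cons] at hk; omega
    obtain ⟨h1, h2⟩ := dotp_xr hR hc v (k + 1) fs hk' fun g hg => hf g (List.mem_cons_of_mem _ hg)
    have hf' := vld_un (hf f List.mem_cons_self)
    have hk2 : k < 256 := by rw [List.length_cons] at hk; omega
    unfold xr lc
    rw [bt_eq, bt_eq]
    rcases e1 : R.testBit k with _ | _
    · rw [cond_false]
      rcases e2 : R.testBit (256 + k) with _ | _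
      · rw [cond_false]
        refine ⟨h1, ?_⟩
        rw [h2, tz_zero e1 e2]; ring
      · rw [cond_true]
        refine ⟨vld_add h1 hf', ?_⟩
        rw [dotp_add h1 hf', h2, tz_neg e1 e2]; ring
    · rw [cond_true]
      refine ⟨vld_sub h1 hf', ?_⟩
      rw [dotp_sub h1 hf', h2, tz_one hR hk2 e1]; ring

/-- comparison with the expected rows -/
def cmp (W : ℕ) (fs : List ℕ) : List ℕ → List ℕ → Bool
  | [], [] => true
  | r :: rs, c :: cs => Nat.beq r (xr (row W c) c 0 fs) && cmp W fs rs cs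
  | _, _ => false

theorem cmp_sound {W : ℕ} (hW : VldM W) {fs : List ℕ} (hl : fs.length ≤ 256) (hf : ∀ f ∈ fs, f < 256) {v : L3} :
    ∀ rs cs : List ℕ, cmp W fs rs cs = true → (∀ w ∈ rs, Ann v w) → (∀ c ∈ cs, c < 256) →
      ∀ c ∈ cs, dotp (tun c) v = lc (row W c) v 0 fs
  | [], [], _, _, _ => fun c hc => absurd hc List.not_mem_nil
  | r :: rs, c :: cs, h, hA, hc => by
    unfold cmp at h
    rw [Bool.and_eq_true] at h
    obtain ⟨h1, h2⟩ := h
    have h3 := Nat.eq_of_beq_eq_true h1
    intro c' hc'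
    rcases List.mem_cons.1 hc' with rfl | hc'
    · have h4 := (hA r List.mem_cons_self).2
      rw [h3, (dotp_xr (hW c') (hc c' List.mem_cons_self) v 0 fs (by omega) hf).2] at h4
      exact sub_eq_zero.1 h4
    · exact cmp_sound hW hl hf rs cs h2 (fun w hw => hA w (List.mem_cons_of_mem _ hw))
        (fun c hc2 => hc c (List.mem_cons_of_mem _ hc2)) c' hc'
  | [], c :: cs, h, _, _ => by exact absurd h (by simp [cmp])
  | r :: rs, [], h, _, _ => by exact absurd h (by simp [cmp])

/-- the free coordinates -/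
def fre (W : ℕ) (fs : List ℕ) : List ℕ → Bool
  | [] => true
  | c :: cs => Nat.beq (xr (row W c) c 0 fs) 0 && fre W fs cs

theorem fre_sound {W : ℕ} (hW : VldM W) {fs : List ℕ} (hl : fs.length ≤ 256) (hf : ∀ f ∈ fs, f < 256) (v : L3) :
    ∀ cs : List ℕ, fre W fs cs = true → (∀ c ∈ cs, c < 256) → ∀ c ∈ cs, dotp (tun c) v = lc (row W c) v 0 fs
  | [], _, _ => fun c hc => absurd hc List.not_mem_nil
  | c :: cs, h, hc => by
    unfold fre at h
    rw [Bool.and_eq_true] at h
    obtain ⟨h1, h2⟩ := h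
    have h3 := Nat.eq_of_beq_eq_true h1
    intro c' hc'
    rcases List.mem_cons.1 hc' with rfl | hc'
    · have h4 := (dotp_xr (hW c') (hc c' List.mem_cons_self) v 0 fs (by omega) hf).2
      rw [h3] at h4
      have h5 : dotp 0 v = 0 := by
        unfold dotp
        exact Finset.sum_eq_zero fun j _ => by rw [val_zero, zero_mul]
      rw [h5] at h4
      exact (sub_eq_zero.1 h4.symm)
    · exact fre_sound hW hl hf v cs h2 (fun c hc2 => hc c (List.mem_cons_of_mem _ hc2)) c' hc'

/-- all indices are covered -/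
def cov (cs fs : List ℕ) : Bool := (List.range 248).all fun n => cs.contains n || fs.contains n

/-- small indices -/
def sml (l : List ℕ) : Bool := l.all fun n => Nat.blt n 248

theorem sml_lt {l : List ℕ} (h : sml l = true) : ∀ n ∈ l, n < 256 := by
  intro n hn
  have h1 := List.all_eq_true.1 h n hn
  have h2 : n < 248 := by simpa [Nat.blt_eq] using h1
  omega

/-- the whole check -/
def chk (rows cs fs : List ℕ) (W : ℕ) : Bool :=
  sml cs && (sml fs && (Nat.ble fs.length 256 && (cov cs fs && (fre W fs fs && cmp W fs (gj [] rows cs) cs.reverse))))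

theorem ker_sound {rows cs fs : List ℕ} {W : ℕ} (h : chk rows cs fs W = true) (hW : VldM W) {v : L3}
    (hv : ∀ w ∈ rows, Ann v w) (j : chevE8.Idx) : v j = lc (row W (pos chevE8 j)) v 0 fs := by
  unfold chk at h
  simp only [Bool.and_eq_true] at h
  obtain ⟨h1, h2, h3, h4, h5, h6⟩ := h
  have hl : fs.length ≤ 256 := Nat.le_of_ble_eq_true h3
  have hg := gj_ann (v := v) [] rows cs (fun w hw => absurd hw List.not_mem_nil) hv
  have h7 := cmp_sound hW hl (sml_lt h2) _ _ h6 hg (fun c hc => sml_lt h1 c (List.mem_reverse.1 hc))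
  have h8 := fre_sound hW hl (sml_lt h2) v fs h5 (sml_lt h2)
  have h9 := List.all_eq_true.1 h4 (pos chevE8 j) (List.mem_range.2 (pos_lt' j))
  rw [← dotp_tun v j]
  rw [Bool.or_eq_true] at h9
  rcases h9 with h9 | h9
  · exact h7 _ (List.mem_reverse.2 (List.contains_iff_mem.1 h9))
  · exact h8 _ (List.contains_iff_mem.1 h9)

end Cfsg.Agent.H74.E83.Ker
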