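import Cfsg.Agent.H74.E83.LinDat

set_option autoImplicit false
set_option maxRecDepth 100000
set_option exponentiation.threshold 600

namespace Cfsg.Agent.H74.E83.Ker

open Cfsg.Agent.H74.E83 Cfsg.Agent.H74.E83.Trit Cfsg.Agent.H74.E83.Code Cfsg.Agent.H74.E83.Elim

/-- the value of `cN` -/
theorem cN_eq : cN = lN := Nat.eq_of_beq_eq_true (by decide +kernel)

end Cfsg.Agent.H74.E83.Ker
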