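import Cfsg.Agent.H74.E83.Vecs

/-!
# The operators of box K as codes (helper74, S5925)

* `aX aY aT : ℕ → ℕ` : the code of `x M`, `y M`, `t M`; `rX rY rT` : `Rep V M → Rep (aX V) (mx x1 * M)`;
* `nqX` : `x² + x⁶ + x⁷ + x⁸ + x¹⁰`, `qrX` : `x + x³ + x⁴ + x⁵ + x⁹`, `ysV` : `1 + y + y² + y³ + y⁴`.
-/

set_option autoImplicit false
set_option maxRecDepth 100000
set_option exponentiation.threshold 600

namespace Cfsg.Agent.H74.E83.Ker

open Matrix Cfsg.Lie Cfsg.Agent.ChevalleyStructure.Elts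
open Cfsg.Agent.H992.E8X
open Cfsg.Agent.H788.E83 (SL5 it Lt ev wx wy wt wfa wfb ws As Ax Ay At Afa Afb)
open Cfsg.Agent.H64.E83 (mx L3 er vec Ph vec_nil vec_cons)
open Cfsg.Agent.H74.E83 Cfsg.Agent.H74.E83.Trit Cfsg.Agent.H74.E83.Code Cfsg.Agent.H74.E83.Elim Cfsg.Agent.H74.E83.Trip
open Cfsg.Agent.H751.Two.Word (sz pos posOK)

/-- `x M` -/
def aX (V : ℕ) : ℕ := wc TX wX V
/-- `y M` -/
def aY (V : ℕ) : ℕ := wc TX wY V
/-- `t M` -/
def aT (V : ℕ) : ℕ := wc TX wT V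

abbrev M8 : Type := Matrix chevE8.Idx chevE8.Idx (ZMod 3)

/-- the matrix of `x` -/
noncomputable abbrev MX : M8 := mx x1
/-- the matrix of `y` -/
noncomputable abbrev MY : M8 := mx y1
/-- the matrix of `t` -/
noncomputable abbrev MT : M8 := mx Trip.t1

theorem phw_x : phw wx = wX := by decide +kernel

theorem phw_y : phw wy = wY := by decide +kernel

theorem phw_t : phw wt = wT := by decide +kernel

theorem rX {V : ℕ} {M : M8} (h : Rep V M) : Rep (aX V) (MX * M) := by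
  have h1 := Rep.word h (w := wx) (by decide +kernel) (by decide +kernel)
  rw [phw_x] at h1
  exact h1

theorem rY {V : ℕ} {M : M8} (h : Rep V M) : Rep (aY V) (MY * M) := by
  have h1 := Rep.word h (w := wy) (by decide +kernel) (by decide +kernel)
  rw [phw_y] at h1
  exact h1

theorem rT {V : ℕ} {M : M8} (h : Rep V M) : Rep (aT V) (MT * M) := by
  have h1 := Rep.word h (w := wt) (by decide +kernel) (by decide +kernel)
  rw [phw_t] at h1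
  exact h1

/-- `x² + x⁶ + x⁷ + x⁸ + x¹⁰` -/
def nqX (V : ℕ) : ℕ := aX (aX (addM V (aX (aX (aX (aX (addM V (aX (addM V (aX (addM V (aX (aX V)))))))))))))

/-- `x + x³ + x⁴ + x⁵ + x⁹` -/
def qrX (V : ℕ) : ℕ := aX (addM V (aX (aX (addM V (aX (addM V (aX (addM V (aX (aX (aX (aX V))))))))))))

/-- `1 + y + y² + y³ + y⁴` -/
def ysV (V : ℕ) : ℕ := addM V (aY (addM V (aY (addM V (aY (addM V (aY V)))))))

theorem poly_nq {R : Type*} [Ring R] (A M : R) :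
    A * (A * (A * (A * (A * (A * (A * (A * (A * (A * M) + M) + M) + M)))) + M)) =
      (A ^ 2 + A ^ 6 + A ^ 7 + A ^ 8 + A ^ 10) * M := by noncomm_ring

theorem poly_qr {R : Type*} [Ring R] (A M : R) :
    A * (A * (A * (A * (A * (A * (A * (A * (A * M))) + M) + M) + M)) + M) =
      (A + A ^ 3 + A ^ 4 + A ^ 5 + A ^ 9) * M := by noncomm_ring

theorem poly_ys {R : Type*} [Ring R] (A M : R) :
    A * (A * (A * (A * M + M) + M) + M) + M = (1 + A + A ^ 2 + A ^ 3 + A ^ 4) * M := by noncomm_ring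

theorem rNq {V : ℕ} {M : M8} (h : Rep V M) :
    Rep (nqX V) ((MX ^ 2 + MX ^ 6 + MX ^ 7 + MX ^ 8 + MX ^ 10) * M) := by
  have h1 := h.add (rX (rX h))
  have h2 := h.add (rX h1)
  have h3 := h.add (rX h2)
  have h4 := h.add (rX (rX (rX (rX h3))))
  have h5 := rX (rX h4)
  rw [poly_nq] at h5
  exact h5

theorem rQr {V : ℕ} {M : M8} (h : Rep V M) :
    Rep (qrX V) ((MX + MX ^ 3 + MX ^ 4 + MX ^ 5 + MX ^ 9) * M) := by
  have h1 := h.add (rX (rX (rX (rX h))))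
  have h2 := h.add (rX h1)
  have h3 := h.add (rX h2)
  have h4 := h.add (rX (rX h3))
  have h5 := rX h4
  rw [poly_qr] at h5
  exact h5

theorem rYs {V : ℕ} {M : M8} (h : Rep V M) : Rep (ysV V) ((1 + MY + MY ^ 2 + MY ^ 3 + MY ^ 4) * M) := by
  have h1 := h.add (rY h)
  have h2 := h.add (rY h1)
  have h3 := h.add (rY h2)
  have h4 := h.add (rY h3)
  rw [poly_ys] at h4
  exact h4

/-! ### the operators on vectors -/

/-- `x² v + x⁶ v + x⁷ v + x⁸ v + x¹⁰ v` -/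
noncomputable def nqs (v : L3) : L3 :=
  mx (x1 ^ 2) *ᵥ v + mx (x1 ^ 6) *ᵥ v + mx (x1 ^ 7) *ᵥ v + mx (x1 ^ 8) *ᵥ v + mx (x1 ^ 10) *ᵥ v

/-- `x v + x³ v + x⁴ v + x⁵ v + x⁹ v` -/
noncomputable def qrs (v : L3) : L3 :=
  mx x1 *ᵥ v + mx (x1 ^ 3) *ᵥ v + mx (x1 ^ 4) *ᵥ v + mx (x1 ^ 5) *ᵥ v + mx (x1 ^ 9) *ᵥ v

/-- `v + y v + y² v + y³ v + y⁴ v` -/
noncomputable def yso (v : L3) : L3 :=
  v + mx y1 *ᵥ v + mx (y1 ^ 2) *ᵥ v + mx (y1 ^ 3) *ᵥ v + mx (y1 ^ 4) *ᵥ v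

theorem mx_pow (g : G3) (n : ℕ) : mx (g ^ n) = (mx g) ^ n := by
  show (((g ^ n : G3) : GL chevE8.Idx (ZMod 3)) : M8) = _
  rw [SubmonoidClass.coe_pow, Units.val_pow_eq_pow_val]

theorem nqs_eq (v : L3) : nqs v = (MX ^ 2 + MX ^ 6 + MX ^ 7 + MX ^ 8 + MX ^ 10) *ᵥ v := by
  unfold nqs
  simp only [mx_pow, Matrix.add_mulVec]

theorem qrs_eq (v : L3) : qrs v = (MX + MX ^ 3 + MX ^ 4 + MX ^ 5 + MX ^ 9) *ᵥ v := by
  unfold qrs
  simp only [mx_pow, Matrix.add_mulVec]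

theorem yso_eq (v : L3) : yso v = (1 + MY + MY ^ 2 + MY ^ 3 + MY ^ 4) *ᵥ v := by
  unfold yso
  simp only [mx_pow, Matrix.add_mulVec, Matrix.one_mulVec]

end Cfsg.Agent.H74.E83.Ker
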