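import Cfsg.Agent.H74.E83.NoFixDat
import Cfsg.Agent.H238.E8.Frame
import Cfsg.Agent.H788.E83.Mat

/-!
# The explicit triple in `E₈(3)` (helper74, S5925, box J)

* `ph : SL₅(3) →* E₈(3)`, `ph A = ph2 A * ph1 (A⁻ᵀ)`; `coe_ph` : the matrix of `ph (ev w)` is that of a word in the root
  elements, hence `semM chevE8 (wc TX …)`;
* `x1 y1 t1 fa1 fb1 s1` : the images of `Ax Ay At Afa Afb As`, with their relations;
* `noFix` : no non-zero vector of `chevE8.Idx → ZMod 3` is fixed by `x1`, `y1` and `t1`.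
-/

set_option autoImplicit false
set_option maxRecDepth 100000

namespace Cfsg.Agent.H74.E83.Trip

open Cfsg.Lie Cfsg.Agent.ChevalleyStructure.Elts
open Cfsg.Agent.H992.E8X
open Cfsg.Agent.H238.E8
open Cfsg.Agent.H788.E83
open Cfsg.Agent.H74.E83 Cfsg.Agent.H74.E83.Trit Cfsg.Agent.H74.E83.Code Cfsg.Agent.H74.E83.Elim
open Cfsg.Agent.H751.Two.Word (sz pos posOK)
open Cfsg.Agent.H751.Two.Code (wG wg wG_nil wG_cons wG_append wG_mem wg_nil wg_append)

/-- the group `E₈(3)` -/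
abbrev G3 : Type := ↥(chevE8.group (ZMod 3))

/-- the homomorphism -/
noncomputable def ph : SL5 →* G3 where
  toFun A := ph2 (ZMod 3) A * ph1 (ZMod 3) (it (ZMod 3) A)
  map_one' := by rw [map_one, map_one, map_one, one_mul]
  map_mul' A B := by
    rw [map_mul, map_mul, map_mul]
    have h := (ph_comm (K := ZMod 3) (it (ZMod 3) A) B).eq
    calc ph2 (ZMod 3) A * ph2 (ZMod 3) B * (ph1 (ZMod 3) (it (ZMod 3) A) * ph1 (ZMod 3) (it (ZMod 3) B))
        = ph2 (ZMod 3) A * (ph2 (ZMod 3) B * ph1 (ZMod 3) (it (ZMod 3) A)) * ph1 (ZMod 3) (it (ZMod 3) B) := by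
          simp only [mul_assoc]
      _ = _ := by rw [← h]; simp only [mul_assoc]

theorem ph_apply (A : SL5) : ph A = ph2 (ZMod 3) A * ph1 (ZMod 3) (it (ZMod 3) A) := rfl

/-! ### words -/

/-- the word of one letter -/
def pw (rt : Fin 5 → Fin 5 → ℕ) (sg : Fin 5 → Fin 5 → ℤ) (l : Lt) : List ℕ :=
  List.replicate (((sg l.1 l.2.1 : ZMod 3) * l.2.2).val) (rt l.1 l.2.1)

/-- the word of a product -/
def pws (rt : Fin 5 → Fin 5 → ℕ) (sg : Fin 5 → Fin 5 → ℤ) (w : List Lt) : List ℕ := w.flatMap (pw rt sg)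

/-- the word of `ph (ev w)` -/
def phw (w : List Lt) : List ℕ := pws rt2 sg2 w ++ pws rt1 sg1 (w.map trl)

theorem wG_replicate (n r : ℕ) : wG hE8 (ZMod 3) (List.replicate n r) = xG hE8 r (n : ZMod 3) := by
  induction n with
  | zero => rw [List.replicate_zero, wG_nil, Nat.cast_zero, xG_zero]
  | succ n ih => rw [List.replicate_succ, wG_cons, ih, xG_add, Nat.cast_succ, add_comm]

/-- good letters -/
def gd (l : Lt) : Prop := l.1 ≠ l.2.1

instance : DecidablePred gd := fun l => inferInstanceAs (Decidable (l.1 ≠ l.2.1))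

theorem wG_pw {rt : Fin 5 → Fin 5 → ℕ} {sg : Fin 5 → Fin 5 → ℤ}
    {φ : SL5 →* G3} (hφ : ∀ i j (hij : i ≠ j) (c : ZMod 3),
      φ (Matrix.SpecialLinearGroup.transvection hij c) = X (rt i j) ((sg i j : ZMod 3) * c)) {l : Lt} (hl : gd l) :
    (φ (tv l) : GL chevE8.Idx (ZMod 3)) = wG hE8 (ZMod 3) (pw rt sg l) := by
  have hl' : l.1 ≠ l.2.1 := hl
  unfold tv pw
  rw [dif_pos hl', hφ, wG_replicate, coe_X, ZMod.natCast_zmod_val]

theorem wG_pws {rt : Fin 5 → Fin 5 → ℕ} {sg : Fin 5 → Fin 5 → ℤ}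
    {φ : SL5 →* G3} (hφ : ∀ i j (hij : i ≠ j) (c : ZMod 3),
      φ (Matrix.SpecialLinearGroup.transvection hij c) = X (rt i j) ((sg i j : ZMod 3) * c)) {w : List Lt} (hw : ∀ l ∈ w, gd l) :
    (φ (ev w) : GL chevE8.Idx (ZMod 3)) = wG hE8 (ZMod 3) (pws rt sg w) := by
  induction w with
  | nil => rw [ev_nil, map_one]; rfl
  | cons l w ih =>
    rw [ev_cons, map_mul, Subgroup.coe_mul, wG_pw hφ (hw l List.mem_cons_self),
      ih fun a ha => hw a (List.mem_cons_of_mem _ ha), ← wG_append]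
    rfl

theorem coe_ph_wG {w : List Lt} (hw : ∀ l ∈ w, gd l) :
    (ph (ev w) : GL chevE8.Idx (ZMod 3)) = wG hE8 (ZMod 3) (phw w) := by
  have hw' : ∀ l ∈ w.map trl, gd l := by
    intro l hl
    obtain ⟨a, ha, rfl⟩ := List.mem_map.1 hl
    exact (hw a ha).symm
  rw [ph_apply, Subgroup.coe_mul, it_ev, wG_pws (fun i j hij c => ph2_tv (ZMod 3) hij c) hw,
    wG_pws (fun i j hij c => ph1_tv (ZMod 3) hij c) hw', ← wG_append]
  rfl

theorem sz_le : sz chevE8 ≤ 256 := by decide +kernel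

theorem sz_eq : sz chevE8 = 248 := by decide +kernel

/-- the matrix of `ph (ev w)` -/
theorem coe_ph {w : List Lt} (hw : ∀ l ∈ w, gd l) (h : okW TX (phw w) = true) :
    ((ph (ev w) : GL chevE8.Idx (ZMod 3)) : Matrix chevE8.Idx chevE8.Idx (ZMod 3)) =
      semM chevE8 (wc TX (phw w) (idM 248)) := by
  rw [coe_ph_wG hw, coe_wG hE8 sz_le TX_ok h, sz_eq]

/-! ### the elements -/

/-- `x` -/
noncomputable def x1 : G3 := ph Ax
/-- `y` -/
noncomputable def y1 : G3 := ph Ay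
/-- `t` -/
noncomputable def t1 : G3 := ph At
/-- `f_a` -/
noncomputable def fa1 : G3 := ph Afa
/-- `f_b` -/
noncomputable def fb1 : G3 := ph Afb
/-- `ŝ` -/
noncomputable def s1 : G3 := ph As

theorem coe_x1 : ((x1 : GL chevE8.Idx (ZMod 3)) : Matrix chevE8.Idx chevE8.Idx (ZMod 3)) = semM chevE8 mX :=
  coe_ph (w := wx) (by decide +kernel) (by decide +kernel)

theorem coe_y1 : ((y1 : GL chevE8.Idx (ZMod 3)) : Matrix chevE8.Idx chevE8.Idx (ZMod 3)) = semM chevE8 mY :=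
  coe_ph (w := wy) (by decide +kernel) (by decide +kernel)

theorem coe_t1 : ((t1 : GL chevE8.Idx (ZMod 3)) : Matrix chevE8.Idx chevE8.Idx (ZMod 3)) = semM chevE8 mT :=
  coe_ph (w := wt) (by decide +kernel) (by decide +kernel)

theorem vld_X : VldM mX := by
  have h := vldM_wc hE8 sz_le TX_ok (w := wX) (by decide +kernel)
  rw [sz_eq] at h
  exact h

theorem vld_Y : VldM mY := by
  have h := vldM_wc hE8 sz_le TX_ok (w := wY) (by decide +kernel)
  rw [sz_eq] at h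
  exact h

theorem vld_T : VldM mT := by
  have h := vldM_wc hE8 sz_le TX_ok (w := wT) (by decide +kernel)
  rw [sz_eq] at h
  exact h

/-! ### no fixed vector -/

theorem selL_lt : ∀ e ∈ selL, e.2 < 248 := by decide +kernel

theorem colL_all : ∀ n < 248, n ∈ colL := by decide +kernel

theorem noFix {v : chevE8.Idx → ZMod 3}
    (hx : ((x1 : GL chevE8.Idx (ZMod 3)) : Matrix chevE8.Idx chevE8.Idx (ZMod 3)).mulVec v = v)
    (hy : ((y1 : GL chevE8.Idx (ZMod 3)) : Matrix chevE8.Idx chevE8.Idx (ZMod 3)).mulVec v = v)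
    (ht : ((t1 : GL chevE8.Idx (ZMod 3)) : Matrix chevE8.Idx chevE8.Idx (ZMod 3)).mulVec v = v) : v = 0 := by
  rw [coe_x1] at hx
  rw [coe_y1] at hy
  rw [coe_t1] at ht
  have h248 : ∀ n, n < 248 → n < sz chevE8 := fun n hn => by rw [sz_eq]; exact hn
  have hA : ∀ w ∈ selL.map selR, Ann v w := by
    intro w hw
    obtain ⟨e, he, rfl⟩ := List.mem_map.1 hw
    have hlt := h248 _ (selL_lt e he)
    unfold selR
    split
    · exact ann_fixRow sz_le vld_X hx hlt
    · exact ann_fixRow sz_le vld_Y hy hlt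
    · exact ann_fixRow sz_le vld_T ht hlt
  have hc : ∀ j : chevE8.Idx, pos chevE8 j ∈ colL := fun j => colL_all _ (by
    have := (posOK chevE8).lt j
    rwa [sz_eq] at this)
  funext j
  exact elim_sound sz_le colL _ elim_ok hA (fun w _ j hj => absurd (hc j) hj) j (hc j)

/-! ### relations -/

theorem x1_pow : x1 ^ 11 = 1 := by unfold x1; rw [← map_pow, x_pow, map_one]

theorem y1_pow : y1 ^ 5 = 1 := by unfold y1; rw [← map_pow, y_pow, map_one]

theorem t1_pow : t1 ^ 2 = 1 := by unfold t1; rw [← map_pow, t_pow, map_one]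

theorem y1_x1 : y1 * x1 * y1⁻¹ = x1 ^ 3 := by
  unfold y1 x1; rw [← map_inv, ← map_mul, ← map_mul, y_x', map_pow]

theorem t1_y1 : t1 * y1 * t1 = y1⁻¹ := by
  unfold y1 t1; rw [← map_mul, ← map_mul, t_y', map_inv]

theorem x1_t1 : (x1 * t1) ^ 3 = 1 := by
  unfold x1 t1; rw [← map_mul, ← map_pow, x_t, map_one]

theorem fa1_pow : fa1 ^ 2 = t1 := by unfold fa1 t1; rw [← map_pow, fa_pow]

theorem fb1_pow : fb1 ^ 2 = t1 := by unfold fb1 t1; rw [← map_pow, fb_pow]

theorem fa1_y1 : fa1 * y1 * fa1⁻¹ = y1 ^ 2 := by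
  unfold fa1 y1; rw [← map_inv, ← map_mul, ← map_mul, fa_y', map_pow]

theorem fb1_y1 : fb1 * y1 * fb1⁻¹ = y1 ^ 2 := by
  unfold fb1 y1; rw [← map_inv, ← map_mul, ← map_mul, fb_y', map_pow]

theorem x1_fa1 : (x1 * fa1) ^ 8 = 1 := by unfold x1 fa1; rw [← map_mul, ← map_pow, x_fa, map_one]

theorem x1_fb1 : (x1 * fb1) ^ 11 = 1 := by unfold x1 fb1; rw [← map_mul, ← map_pow, x_fb, map_one]

theorem fb1_a : fb1 * (x1 * t1 * x1⁻¹) * fb1⁻¹ = y1 * (x1 * t1 * x1⁻¹) * t1 * y1 ^ 2 := by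
  unfold fb1 y1 x1 t1
  simp only [← map_inv, ← map_mul, ← map_pow]
  rw [fb_a]

theorem s1_pow : s1 ^ 11 = x1 := by unfold s1 x1; rw [← map_pow, s_pow]

theorem s1_pow' : s1 ^ 121 = 1 := by unfold s1; rw [← map_pow, s_pow', map_one]

theorem s1_y1 : y1 * s1 * y1⁻¹ = s1 ^ 3 := by
  unfold y1 s1; rw [← map_inv, ← map_mul, ← map_mul, s_y', map_pow]

theorem s1_comm : s1 * x1 = x1 * s1 := by unfold s1 x1; rw [← map_mul, s_comm, map_mul]

/-! ### orders -/

theorem semM_ne_one {V a b : ℕ} (ha : a < 248) (hb : b < 248) (hab : a ≠ b) (h : val (row V a) b ≠ 0) :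
    semM chevE8 V ≠ 1 := by
  intro h1
  obtain ⟨i, hi⟩ := (posOK chevE8).surj a (by rw [sz_eq]; exact ha)
  obtain ⟨j, hj⟩ := (posOK chevE8).surj b (by rw [sz_eq]; exact hb)
  have h2 := congrFun (congrFun h1 i) j
  rw [semM_apply, hi, hj, Matrix.one_apply_ne (fun e => hab (by rw [← hi, ← hj, e]))] at h2
  exact h h2

theorem ne_one_of {g : G3} {V a b : ℕ}
    (hg : ((g : GL chevE8.Idx (ZMod 3)) : Matrix chevE8.Idx chevE8.Idx (ZMod 3)) = semM chevE8 V)
    (ha : a < 248) (hb : b < 248) (hab : a ≠ b) (h : val (row V a) b ≠ 0) : g ≠ 1 := by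
  rintro rfl
  exact semM_ne_one ha hb hab h (hg.symm.trans (by rw [Subgroup.coe_one, Units.val_one]))

theorem x1_ne : x1 ≠ 1 := ne_one_of coe_x1 (a := 0) (b := 3) (by norm_num) (by norm_num) (by norm_num) (by decide +kernel)

theorem y1_ne : y1 ≠ 1 := ne_one_of coe_y1 (a := 0) (b := 172) (by norm_num) (by norm_num) (by norm_num) (by decide +kernel)

theorem t1_ne : t1 ≠ 1 := ne_one_of coe_t1 (a := 0) (b := 170) (by norm_num) (by norm_num) (by norm_num) (by decide +kernel)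

theorem order_x1 : orderOf x1 = 11 := by
  have : Fact (Nat.Prime 11) := ⟨by norm_num⟩
  exact orderOf_eq_prime x1_pow x1_ne

theorem order_y1 : orderOf y1 = 5 := by
  have : Fact (Nat.Prime 5) := ⟨by norm_num⟩
  exact orderOf_eq_prime y1_pow y1_ne

theorem order_t1 : orderOf t1 = 2 := orderOf_eq_prime t1_pow t1_ne

theorem order_s1 : orderOf s1 = 121 := by
  have : Fact (Nat.Prime 11) := ⟨by norm_num⟩
  have h := orderOf_eq_prime_pow (x := s1) (p := 11) (n := 1) (by rw [pow_one, s1_pow]; exact x1_ne) s1_pow'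
  simpa using h

end Cfsg.Agent.H74.E83.Trip
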