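import Cfsg.Agent.H74.E83.Ker

/-!
# Matrices with given columns (helper74, S5925, box K)

* `mkW 0 ls` : the code of the matrix whose column number `k` is `vec (ls.getD k [])` (`H64.E83.vec`);
* `ker_vec` : every `v` killed by the rows is `combo v fs ls`;
* `img` : the images of the vectors under a matrix, from an equality of codes.
-/

set_option autoImplicit false
set_option maxRecDepth 100000
set_option exponentiation.threshold 600

namespace Cfsg.Agent.H74.E83.Ker

open Matrix Cfsg.Lie Cfsg.Agent.ChevalleyStructure.Elts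
open Cfsg.Agent.H992.E8X
open Cfsg.Agent.H64.E83 (mx L3 er vec Ph vec_nil vec_cons)
open Cfsg.Agent.H74.E83 Cfsg.Agent.H74.E83.Trit Cfsg.Agent.H74.E83.Code Cfsg.Agent.H74.E83.Elim Cfsg.Agent.H74.E83.Trip
open Cfsg.Agent.H751.Two.Word (sz pos posOK)

theorem pos_inr (u : Fin chevE8.nroots) : pos chevE8 (Sum.inr u) = 8 + u.val := rfl

theorem pos_inl (a : Fin chevE8.rank) : pos chevE8 (Sum.inl a) = a.val := rfl

theorem er_pos (k : ℕ) (j : chevE8.Idx) : er k j = if pos chevE8 j = 8 + k then 1 else 0 := by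
  rcases j with a | u
  · have h1 : a.val < 8 := a.2
    rw [pos_inl, if_neg (by omega)]
    rfl
  · rw [pos_inr]
    show (if u.val = k then (1 : ZMod 3) else 0) = _
    by_cases h : u.val = k
    · rw [if_pos h, if_pos (by omega)]
    · rw [if_neg h, if_neg (by omega)]

/-- `a + c b` -/
def addc (c : ℤ) (a b : ℕ) : ℕ :=
  match (c % 3).toNat with
  | 0 => a
  | 1 => tadd a b
  | _ => tsub a b

theorem addc_spec (c : ℤ) {a b : ℕ} (ha : Vld a) (hb : Vld b) : Vld (addc c a b) ∧
    ∀ m < 256, val (addc c a b) m = val a m + (c : ZMod 3) * val b m := by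
  have hc : ((c : ℤ) : ZMod 3) = ((c % 3 : ℤ) : ZMod 3) := (ZMod.intCast_mod c 3).symm
  have h3 : c % 3 = 0 ∨ c % 3 = 1 ∨ c % 3 = 2 := by omega
  unfold addc
  rcases h3 with h | h | h
  · rw [hc, h]
    exact ⟨ha, fun m _ => by simp⟩
  · rw [hc, h]
    exact ⟨vld_add ha hb, fun m hm => by
      show val (tadd a b) m = _
      rw [val_add ha hb hm, Int.cast_one, one_mul]⟩
  · rw [hc, h]
    refine ⟨vld_sub ha hb, fun m hm => ?_⟩
    show val (tsub a b) m = _
    rw [val_sub ha hb hm]
    have h5 : ((2 : ℤ) : ZMod 3) = -1 := by decide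
    rw [h5]; ring

/-- add `vec l` to column `k` -/
def mk1 (k : ℕ) (l : List (ℕ × ℤ)) (V : ℕ) : ℕ :=
  l.foldr (fun e acc => put acc (8 + e.1) (addc e.2 (row acc (8 + e.1)) (tun k))) V

theorem mk1_spec {k : ℕ} (hk : k < 256) (l : List (ℕ × ℤ)) {V : ℕ} (hV : VldM V) : VldM (mk1 k l V) ∧
    ∀ (j : chevE8.Idx) (m : ℕ), m < 256 →
      val (row (mk1 k l V) (pos chevE8 j)) m = val (row V (pos chevE8 j)) m + if m = k then vec l j else 0 := by
  unfold mk1
  induction l with
  | nil => exact ⟨hV, fun j m _ => by rw [vec_nil]; simp⟩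
  | cons e l ih =>
    obtain ⟨h1, h2⟩ := ih
    obtain ⟨h3, h4⟩ := addc_spec e.2 (h1 (8 + e.1)) (vld_un hk)
    rw [List.foldr_cons]
    refine ⟨vldM_put h1 h3, fun j m hm => ?_⟩
    rw [row_put h3.lt, vec_cons, Pi.add_apply, Pi.smul_apply, er_pos, smul_eq_mul]
    by_cases h : pos chevE8 j = 8 + e.1
    · rw [if_pos h, if_pos h, h4 m hm, val_un hk, ← h, h2 j m hm]
      split_ifs
      · ring
      · ring
    · rw [if_neg h, if_neg h, h2 j m hm, mul_zero, zero_add]

/-- the matrix with the given columns -/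
def mkW : ℕ → List (List (ℕ × ℤ)) → ℕ
  | _, [] => 0
  | k, l :: ls => mk1 k l (mkW (k + 1) ls)

theorem mkW_spec : ∀ (k : ℕ) (ls : List (List (ℕ × ℤ))), k + ls.length ≤ 256 → VldM (mkW k ls) ∧
    ∀ (j : chevE8.Idx) (m : ℕ), m < 256 →
      val (row (mkW k ls) (pos chevE8 j)) m = if k ≤ m then vec (ls.getD (m - k) []) j else 0
  | k, [], _ => ⟨vldM_zero, fun j m _ => by
      show val (row 0 _) m = _
      rw [row_zero, val_zero]
      have : ([] : List (List (ℕ × ℤ))).getD (m - k) [] = [] := rfl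
      rw [this, vec_nil]; simp⟩
  | k, l :: ls, h => by
    rw [List.length_cons] at h
    obtain ⟨h1, h2⟩ := mkW_spec (k + 1) ls (by omega)
    obtain ⟨h3, h4⟩ := mk1_spec (k := k) (by omega) l h1
    refine ⟨h3, fun j m hm => ?_⟩
    show val (row (mk1 k l (mkW (k + 1) ls)) _) m = _
    rw [h4 j m hm, h2 j m hm]
    rcases lt_trichotomy m k with h5 | h5 | h5
    · rw [if_neg (by omega), if_neg (by omega), if_neg (by omega), add_zero]
    · subst h5
      rw [if_neg (by omega), if_pos rfl, if_pos le_rfl, Nat.sub_self, zero_add]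
      rfl
    · obtain ⟨d, rfl⟩ : ∃ d, m = k + 1 + d := ⟨m - (k + 1), by omega⟩
      rw [if_pos (by omega), if_neg (by omega), if_pos (by omega), add_zero, show k + 1 + d - (k + 1) = d by omega,
        show k + 1 + d - k = d + 1 by omega]
      rfl

/-- the linear combination -/
def combo (v : L3) : List ℕ → List (List (ℕ × ℤ)) → L3
  | f :: fs, l :: ls => dotp (tun f) v • vec l + combo v fs ls
  | _, _ => 0

theorem lc_combo {R : ℕ} {v : L3} {j : chevE8.Idx} : ∀ (k : ℕ) (fs : List ℕ) (ls : List (List (ℕ × ℤ))),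
    fs.length = ls.length → (∀ i, i < ls.length → val R (k + i) = vec (ls.getD i []) j) → lc R v k fs = combo v fs ls j
  | k, [], [], _, _ => rfl
  | k, f :: fs, l :: ls, h, hv => by
    have h1 := lc_combo (R := R) (v := v) (j := j) (k + 1) fs ls (by simpa using h) (fun i hi => by
      have h2 := hv (i + 1) (by rw [List.length_cons]; omega)
      rw [show k + 1 + i = k + (i + 1) by omega, h2]
      rfl)
    show val R k * dotp (tun f) v + lc R v (k + 1) fs = (dotp (tun f) v • vec l + combo v fs ls) j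
    have h2 := hv 0 (by rw [List.length_cons]; omega)
    rw [h1, Pi.add_apply, Pi.smul_apply, smul_eq_mul]
    rw [add_zero] at h2
    rw [h2, mul_comm]
    rfl
  | k, [], l :: ls, h, _ => by simp at h
  | k, f :: fs, [], h, _ => by simp at h

theorem ker_vec {rows cs fs : List ℕ} {ls : List (List (ℕ × ℤ))} (hlen : fs.length = ls.length) (hl : ls.length ≤ 256)
    (h : chk rows cs fs (mkW 0 ls) = true) {v : L3} (hv : ∀ w ∈ rows, Ann v w) : v = combo v fs ls := by
  obtain ⟨h1, h2⟩ := mkW_spec 0 ls (by omega)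
  funext j
  rw [ker_sound h h1 hv j]
  apply lc_combo 0 fs ls hlen
  intro i hi
  rw [h2 j (0 + i) (by omega), if_pos (by omega)]
  congr 3
  omega

theorem mkW_rep (ls : List (List (ℕ × ℤ))) (hl : ls.length ≤ 248) : Rep (mkW 0 ls) (semM chevE8 (mkW 0 ls)) :=
  ⟨(mkW_spec 0 ls (by omega)).1, rfl⟩

/-- the images of vectors -/
theorem img {A : Matrix chevE8.Idx chevE8.Idx (ZMod 3)} {ls ls' : List (List (ℕ × ℤ))} {V' : ℕ}
    (h : Rep V' (A * semM chevE8 (mkW 0 ls))) (hl : ls.length ≤ 248) (hl' : ls'.length ≤ 248)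
    (hb : Nat.beq V' (mkW 0 ls') = true) (k : ℕ) (hk : k < 248) :
    A *ᵥ vec (ls.getD k []) = vec (ls'.getD k []) := by
  obtain ⟨m, hm⟩ := (posOK chevE8).surj k (by rw [sz_eq]; exact hk)
  have h1 : semM chevE8 (mkW 0 ls') = A * semM chevE8 (mkW 0 ls) := by
    rw [← Nat.eq_of_beq_eq_true hb, h.sem]
  funext i
  have h2 := congrFun (congrFun h1 i) m
  rw [semM_apply, hm, (mkW_spec 0 ls' (by omega)).2 i k (by omega), if_pos (Nat.zero_le _), Nat.sub_zero,
    Matrix.mul_apply] at h2
  rw [h2]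
  unfold Matrix.mulVec dotProduct
  apply Finset.sum_congr rfl
  intro a _
  rw [semM_apply, hm, (mkW_spec 0 ls (by omega)).2 a k (by omega), if_pos (Nat.zero_le _), Nat.sub_zero]

end Cfsg.Agent.H74.E83.Ker
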